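import Cfsg.Agent.H932.PS11.Alt7
import Cfsg.Agent.H932.PS11.Lift
import Cfsg.Agent.H932.PS11.Arith
import Cfsg.Agent.SmallSimple.InvolColumn
import Cfsg.Agent.Characters.GaloisBasic
import Cfsg.Agent.H696.PSq.Defs

/-!
# `3.A₇` has an irreducible character of degree divisible by four (helper932, S4844 PS-11b)
-/

set_option autoImplicit false
set_option linter.unusedSectionVars false

open Cfsg Subgroup Cfsg.Agent.Characters.Core Cfsg.Agent.Characters.GaloisBasic
open scoped ComplexConjugate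

namespace Cfsg.Agent.H932.PS11

universe u

/-- Values at elements of prime order, constant on the nontrivial powers. -/
theorem val_prime {G : Type u} [Group G] [Finite G] {χ : G → ℂ} (hχ : IsCharacter G χ) {p : ℕ} (hp : p.Prime)
    {x : G} (hx : x ^ p = 1) (h : ∀ k : ℕ, 0 < k → k < p → χ (x ^ k) = χ x) :
    ∃ (n : ℕ) (v : ℤ), χ 1 = n ∧ χ x = v ∧ (p : ℤ) ∣ n - v := by
  obtain ⟨n, μ, h1, hμ, hk⟩ := isCharacter_exists_fin_pow hχ x (n := p) hp.ne_zero hx
  have hp1 : 1 < p := hp.one_lt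
  have hper : ∀ i : Fin n, ∃ a : ℤ, ∑ k ∈ Finset.range p, μ i ^ k = p * a := by
    intro i
    by_cases h : μ i = 1
    · exact ⟨1, by simp [h]⟩
    · refine ⟨0, ?_⟩
      have h2 := mul_neg_geom_sum (μ i) p
      rw [hμ i, sub_self] at h2
      rcases mul_eq_zero.1 h2 with h3 | h3
      · exact absurd (sub_eq_zero.1 h3).symm h
      · rw [h3]; simp
  choose a ha using hper
  have hS : ∑ k ∈ Finset.range p, χ (x ^ k) = p * ((∑ i, a i : ℤ) : ℂ) := by
    simp only [hk]
    rw [Finset.sum_comm]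
    simp only [ha]
    rw [← Finset.mul_sum]
    push_cast
    rfl
  generalize (∑ i, a i : ℤ) = a' at hS
  have hS2 : ∑ k ∈ Finset.range p, χ (x ^ k) = n + (p - 1) * χ x := by
    obtain ⟨q, rfl⟩ : ∃ q, p = q + 1 := ⟨p - 1, by omega⟩
    rw [Finset.sum_range_succ']
    have h3 : ∀ k ∈ Finset.range q, χ (x ^ (k + 1)) = χ x := by
      intro k hk
      rw [Finset.mem_range] at hk
      exact h (k + 1) (by omega) (by omega)
    rw [Finset.sum_congr rfl h3]
    simp [h1]
    ring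
  have hp0 : ((p : ℂ) - 1) ≠ 0 := by
    have : ((p : ℂ)) ≠ 1 := by exact_mod_cast hp1.ne'
    exact sub_ne_zero.2 this
  obtain ⟨v, hv⟩ : ∃ v : ℤ, χ x = v := by
    apply exists_int_of_isIntegral (isIntegral_apply hχ x)
    refine ⟨(p * a' - n) / (p - 1), ?_⟩
    push_cast
    rw [eq_div_iff hp0]
    have := hS.symm.trans hS2
    linear_combination -this
  refine ⟨n, v, h1, hv, ?_⟩
  have h4 : (p : ℤ) * a' = n + (p - 1) * v := by
    have : (p : ℂ) * a' = n + (p - 1) * v := by rw [← hv, ← hS, hS2]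
    exact_mod_cast this
  exact ⟨a' - v, by linarith⟩

section Main

variable {K : Type u} [Group K] [Finite K]

theorem pow_isConj {x k : K} (hkx : k * x * k⁻¹ = x ^ 2) (j : ℕ) : IsConj (x ^ j) (x ^ (2 * j)) := by
  rw [isConj_iff]
  refine ⟨k, ?_⟩
  rw [← conj_pow, hkx, ← pow_mul]

/-- The rational value at an element of order five. -/
theorem val_five {χ : K → ℂ} (hχ : IsIrrCharacter K χ) {x k : K} (hx : x ^ 5 = 1) (hkx : k * x * k⁻¹ = x ^ 2) :
    ∃ v : ℤ, χ x = v ∧ (5 : ℤ) ∣ charDegree χ - v := by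
  have hcl := isIrr_isClassFunction hχ
  have hc := pow_isConj hkx
  have h2 : χ (x ^ 2) = χ x := (classFunction_apply_eq hcl (by simpa using hc 1)).symm
  have h4 : χ (x ^ 4) = χ (x ^ 2) := (classFunction_apply_eq hcl (hc 2)).symm
  have h3 : χ (x ^ 3) = χ (x ^ 4) := by
    have := hc 4
    rw [show 2 * 4 = 5 + 3 from rfl, pow_add x 5 3, hx, one_mul] at this
    exact (classFunction_apply_eq hcl this).symm
  obtain ⟨n, v, h5, h6, h7⟩ := val_prime (isIrr_isCharacter hχ) (by norm_num : Nat.Prime 5) hx (by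
    intro j hj1 hj2
    interval_cases j
    · rw [pow_one]
    · exact h2
    · rw [h3, h4, h2]
    · rw [h4, h2])
  refine ⟨v, h6, ?_⟩
  have h8 := Cfsg.Agent.H686.CharKit.charDegree_cast (isIrr_isCharacter hχ)
  rw [h5] at h8
  have h9 : charDegree χ = n := by exact_mod_cast h8
  rw [h9]
  exact h7

/-- The square of the absolute value at an element of order seven. -/
theorem val_seven {χ : K → ℂ} (hχ : IsIrrCharacter K χ) {x k : K} (hx : x ^ 7 = 1) (hkx : k * x * k⁻¹ = x ^ 2) :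
    ∃ N : ℕ, Complex.normSq (χ x) = N ∧ (7 : ℤ) ∣ (charDegree χ : ℤ) ^ 2 - N := by
  have hcl := isIrr_isClassFunction hχ
  have hch := isIrr_isCharacter hχ
  have hc := pow_isConj hkx
  set ψ : K → ℂ := fun g => χ g * conj (χ g) with hψ
  have hψc : IsCharacter K ψ := isCharacter_mul hch (isCharacter_conj hch)
  have hinv : ∀ g, ψ g⁻¹ = ψ g := by
    intro g
    show χ g⁻¹ * conj (χ g⁻¹) = χ g * conj (χ g)
    rw [isCharacter_apply_inv hch g, Complex.conj_conj, mul_comm]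
  have hcong : ∀ g h, χ g = χ h → ψ g = ψ h := by
    intro g h hgh
    show χ g * conj (χ g) = χ h * conj (χ h)
    rw [hgh]
  have h2 : χ (x ^ 2) = χ x := (classFunction_apply_eq hcl (by simpa using hc 1)).symm
  have h4 : χ (x ^ 4) = χ (x ^ 2) := (classFunction_apply_eq hcl (hc 2)).symm
  have i6 : x ^ 6 = x⁻¹ := by
    rw [eq_inv_iff_mul_eq_one, ← pow_succ]
    exact hx
  have i5 : x ^ 5 = (x ^ 2)⁻¹ := by
    rw [eq_inv_iff_mul_eq_one, ← pow_add]
    exact hx
  have i3 : x ^ 3 = (x ^ 4)⁻¹ := by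
    rw [eq_inv_iff_mul_eq_one, ← pow_add]
    exact hx
  obtain ⟨n, v, h5, h6, h7⟩ := val_prime hψc (by norm_num : Nat.Prime 7) hx (by
    intro j hj1 hj2
    interval_cases j
    · rw [pow_one]
    · exact hcong _ _ h2
    · rw [i3, hinv]; exact hcong _ _ (h4.trans h2)
    · exact hcong _ _ (h4.trans h2)
    · rw [i5, hinv]; exact hcong _ _ h2
    · rw [i6, hinv])
  have h8 := Cfsg.Agent.H686.CharKit.charDegree_cast hch
  have h9 : ((Complex.normSq (χ x) : ℝ) : ℂ) = (v : ℂ) := by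
    rw [← h6, ← Complex.mul_conj]
  have h10 : Complex.normSq (χ x) = (v : ℝ) := by exact_mod_cast h9
  have h11 : 0 ≤ v := by
    have := Complex.normSq_nonneg (χ x)
    rw [h10] at this
    exact_mod_cast this
  obtain ⟨N, rfl⟩ := Int.eq_ofNat_of_zero_le h11
  refine ⟨N, by rw [h10]; norm_cast, ?_⟩
  have h12 : (charDegree χ : ℂ) ^ 2 = n := by
    rw [← h5]
    show _ = χ 1 * conj (χ 1)
    rw [← h8, Complex.conj_natCast, sq]
  have h13 : (charDegree χ : ℤ) ^ 2 = n := by exact_mod_cast h12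
  rw [h13]
  exact h7

theorem index_eq {Q : Type*} [Group Q] {f : K →* Q} (hf : Function.Surjective f) (hc : f.ker ≤ center K)
    {r : ℕ} (hcard : Nat.card f.ker = r) {n : ℕ} (hn : n.Coprime r) {x : K} (hx : x ^ n = 1) (hr : r ≠ 0) :
    (centralizer ({x} : Set K)).index * Nat.card (centralizer ({f x} : Set Q)) = Nat.card Q := by
  have h1 := Subgroup.card_mul_index (centralizer ({x} : Set K))
  have h2 := Subgroup.card_mul_index f.ker
  have h3 : f.ker.index = Nat.card Q := by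
    rw [Subgroup.index_ker, MonoidHom.range_eq_top.2 hf, Subgroup.card_top]
  rw [card_centralizer hf hc hcard hn hx, ← h2, hcard, h3, mul_assoc] at h1
  have h4 := Nat.eq_of_mul_eq_mul_left (Nat.pos_of_ne_zero hr) h1
  rw [← h4, mul_comm]

/-- `3.A₇` has an irreducible character of degree divisible by `4`. -/
theorem three_hom (hK : commutator K = ⊤) (f : K →* A7) (hf : Function.Surjective f) (hc : f.ker ≤ center K)
    (hcard : Nat.card f.ker = 3) : H33.IM 4 K := by
  classical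
  by_contra hIM
  have := finite_irr (G := K)
  have := Fintype.ofFinite (IrrCharacter K)
  -- the element of the kernel
  obtain ⟨z, hzk, hz1⟩ : ∃ z ∈ f.ker, z ≠ 1 := by
    by_contra hcon
    push Not at hcon
    have h1 : f.ker = ⊥ := (Subgroup.eq_bot_iff_forall _).2 hcon
    rw [h1, Subgroup.card_bot] at hcard
    omega
  have hzc := hc hzk
  have hz3 := pow_r_eq_one hcard hzk
  obtain ⟨ω, hω⟩ : ∃ ω : ℂ, IsPrimitiveRoot ω 3 := ⟨_, Complex.isPrimitiveRoot_exp 3 (by norm_num)⟩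
  have h3p : Nat.Prime 3 := by norm_num
  -- the elements
  obtain ⟨t0, ht0, ht1, htc⟩ := two
  obtain ⟨c0, k0, hc0, hc1, hck, hcc⟩ := five
  obtain ⟨d0, l0, hd0, hd1, hdl, hdc⟩ := seven
  obtain ⟨t, htf, ht⟩ := exists_lift hf hcard (n := 2) (by norm_num) ht0
  obtain ⟨c, hcf, hcp⟩ := exists_lift hf hcard (n := 5) (by norm_num) hc0
  obtain ⟨d, hdf, hdp⟩ := exists_lift hf hcard (n := 7) (by norm_num) hd0
  obtain ⟨k, hk⟩ := hf k0
  obtain ⟨l, hl⟩ := hf l0
  have hkc : k * c * k⁻¹ = c ^ 2 := by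
    refine conj_eq hc hcard (n := 5) (by norm_num) hcp ?_ ?_
    · rw [← pow_mul, mul_comm, pow_mul, hcp, one_pow]
    · rw [map_mul, map_mul, map_inv, hk, hcf, map_pow, hcf, hck]
  have hld : l * d * l⁻¹ = d ^ 2 := by
    refine conj_eq hc hcard (n := 7) (by norm_num) hdp ?_ ?_
    · rw [← pow_mul, mul_comm, pow_mul, hdp, one_pow]
    · rw [map_mul, map_mul, map_inv, hl, hdf, map_pow, hdf, hdl]
  have hidx : (centralizer ({t} : Set K)).index = 105 := by
    have h1 := index_eq hf hc hcard (n := 2) (by norm_num) ht (by norm_num)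
    rw [htf, htc, card_A7] at h1
    omega
  set I := (Finset.univ : Finset (IrrCharacter K)).filter (fun χ : IrrCharacter K => Ov z ω (χ : K → ℂ)) with hI
  have hmem : ∀ χ ∈ I, Ov z ω (χ : K → ℂ) := fun χ hχ => (Finset.mem_filter.1 hχ).2
  -- degrees
  have hdeg : ∀ χ ∈ I, ∃ e : ℕ, charDegree (χ : K → ℂ) = 3 * e := fun χ hχ =>
    dvd_degree hK hzc hω χ.2 (hmem χ hχ)
  choose! e he using hdeg
  have hS : ∀ χ : IrrCharacter K, ∃ s : ℤ, (χ : K → ℂ) t = s ∧ (4 : ℤ) ∣ charDegree (χ : K → ℂ) - s := by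
    intro χ
    have hch := isIrr_isCharacter χ.2
    obtain ⟨n, s, h1, h2, -⟩ := Cfsg.Agent.SmallSimple.InvolColumn.exists_int_of_char hch ht
    obtain ⟨j, hj⟩ := Cfsg.Agent.MTwelve.SmallDegree.character_eq_add_four_mul hK hch ht
    refine ⟨s, h2, j, ?_⟩
    rw [← Cfsg.Agent.H686.CharKit.charDegree_cast hch, h2] at hj
    have h3 : (charDegree (χ : K → ℂ) : ℤ) = s + 4 * j := by exact_mod_cast hj
    rw [h3]
    ring
  choose s hs1 hs2 using hS
  have hF : ∀ χ : IrrCharacter K, ∃ v : ℤ, (χ : K → ℂ) c = v ∧ (5 : ℤ) ∣ charDegree (χ : K → ℂ) - v :=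
    fun χ => val_five χ.2 hcp hkc
  choose F hF1 hF2 using hF
  have hN : ∀ χ : IrrCharacter K, ∃ N : ℕ, Complex.normSq ((χ : K → ℂ) d) = N ∧
      (7 : ℤ) ∣ (charDegree (χ : K → ℂ) : ℤ) ^ 2 - N := fun χ => val_seven χ.2 hdp hld
  choose N hN1 hN2 using hN
  have hone : ∀ χ ∈ I, (χ : K → ℂ) 1 = ((3 * e χ : ℤ) : ℂ) := by
    intro χ hχ
    rw [← Cfsg.Agent.H686.CharKit.charDegree_cast (isIrr_isCharacter χ.2), he χ hχ]
    push_cast
    rfl
  refine arith I e s F N ?_ ?_ ?_ ?_ ?_ ?_ ?_ ?_ ?_ ?_ ?_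
  · intro χ hχ h4
    apply hIM
    refine H33.IM.intro χ.2 ?_
    rw [he χ hχ]
    exact Dvd.dvd.mul_left h4 3
  · intro χ hχ
    have := hs2 χ
    rw [he χ hχ] at this
    push_cast at this
    exact this
  · intro χ hχ
    have h1 := Cfsg.Agent.SmallSimple.InvolColumn.dvd_index_mul χ.2 (hs1 χ)
    rw [hidx, he χ hχ] at h1
    have h2 : (3 : ℤ) * (e χ : ℤ) ∣ 3 * (35 * s χ) := by
      have h3 : ((3 * e χ : ℕ) : ℤ) = 3 * (e χ : ℤ) := by push_cast; rfl
      rw [← h3]
      refine h1.trans (dvd_of_eq ?_)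
      push_cast
      ring
    exact Int.dvd_of_mul_dvd_mul_left (by norm_num) h2
  · intro χ hχ
    have := hF2 χ
    rw [he χ hχ] at this
    push_cast at this
    exact this
  · intro χ hχ
    have := hN2 χ
    rw [he χ hχ] at this
    push_cast at this
    rw [show (9 : ℤ) * (e χ : ℤ) ^ 2 = (3 * (e χ : ℤ)) ^ 2 by ring]
    exact this
  · have h1 := sum_over_self h3p hf hc hcard hzk hz1 hω (n := 1) (by norm_num) (one_pow 1 : (1 : K) ^ 1 = 1)
    rw [map_one] at h1
    have h2 : Nat.card (centralizer ({(1 : A7)} : Set A7)) = 2520 := by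
      have h3 : centralizer ({(1 : A7)} : Set A7) = ⊤ := by
        rw [eq_top_iff]
        intro x _
        rw [mem_centralizer_singleton_iff, mul_one, one_mul]
      rw [h3, Subgroup.card_top, card_A7]
    rw [h2] at h1
    have h4 : ∑ χ ∈ I, (((3 * e χ : ℕ) : ℝ)) ^ 2 = 2520 := by
      have h5 : ∑ χ ∈ I, Complex.normSq ((χ : K → ℂ) 1) = ∑ χ ∈ I, (((3 * e χ : ℕ) : ℝ)) ^ 2 := by
        refine Finset.sum_congr rfl fun χ hχ => ?_
        rw [hone χ hχ, Complex.normSq_intCast]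
        push_cast
        ring
      rw [← h5]
      exact_mod_cast h1
    have h6 : ∑ χ ∈ I, (3 * e χ) ^ 2 = 2520 := by exact_mod_cast h4
    have h7 : ∑ χ ∈ I, (3 * e χ) ^ 2 = 9 * ∑ χ ∈ I, e χ ^ 2 := by
      rw [Finset.mul_sum]
      exact Finset.sum_congr rfl fun χ _ => by ring
    omega
  · have h1 := sum_over_self h3p hf hc hcard hzk hz1 hω (n := 2) (by norm_num) ht
    rw [htf, htc] at h1
    have h5 : ∑ χ ∈ I, Complex.normSq ((χ : K → ℂ) t) = ((∑ χ ∈ I, s χ ^ 2 : ℤ) : ℝ) := by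
      rw [Int.cast_sum]
      refine Finset.sum_congr rfl fun χ _ => ?_
      rw [hs1 χ, Complex.normSq_intCast]
      push_cast
      ring
    rw [h5] at h1
    exact_mod_cast h1
  · have h1 := sum_over_zero (f := f) hzc hz3 hzk hω (by norm_num) (g := t) (h := 1) (by
      rw [map_one, isConj_one_left, htf]
      exact ht1)
    have h5 : ∑ χ ∈ I, (χ : K → ℂ) t * conj ((χ : K → ℂ) 1) = ((3 * ∑ χ ∈ I, s χ * (e χ : ℤ) : ℤ) : ℂ) := by
      rw [Finset.mul_sum, Int.cast_sum]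
      refine Finset.sum_congr rfl fun χ hχ => ?_
      rw [hs1 χ, hone χ hχ, map_intCast]
      push_cast
      ring
    rw [h5] at h1
    have h6 : 3 * ∑ χ ∈ I, s χ * (e χ : ℤ) = 0 := by exact_mod_cast h1
    omega
  · have h1 := sum_over_self h3p hf hc hcard hzk hz1 hω (n := 5) (by norm_num) hcp
    rw [hcf, hcc] at h1
    have h5 : ∑ χ ∈ I, Complex.normSq ((χ : K → ℂ) c) = ((∑ χ ∈ I, F χ ^ 2 : ℤ) : ℝ) := by
      rw [Int.cast_sum]
      refine Finset.sum_congr rfl fun χ _ => ?_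
      rw [hF1 χ, Complex.normSq_intCast]
      push_cast
      ring
    rw [h5] at h1
    exact_mod_cast h1
  · have h1 := sum_over_zero (f := f) hzc hz3 hzk hω (by norm_num) (g := c) (h := 1) (by
      rw [map_one, isConj_one_left, hcf]
      exact hc1)
    have h5 : ∑ χ ∈ I, (χ : K → ℂ) c * conj ((χ : K → ℂ) 1) = ((3 * ∑ χ ∈ I, F χ * (e χ : ℤ) : ℤ) : ℂ) := by
      rw [Finset.mul_sum, Int.cast_sum]
      refine Finset.sum_congr rfl fun χ hχ => ?_
      rw [hF1 χ, hone χ hχ, map_intCast]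
      push_cast
      ring
    rw [h5] at h1
    have h6 : 3 * ∑ χ ∈ I, F χ * (e χ : ℤ) = 0 := by exact_mod_cast h1
    omega
  · have h1 := sum_over_self h3p hf hc hcard hzk hz1 hω (n := 7) (by norm_num) hdp
    rw [hdf, hdc] at h1
    have h5 : ∑ χ ∈ I, Complex.normSq ((χ : K → ℂ) d) = ((∑ χ ∈ I, N χ : ℕ) : ℝ) := by
      rw [Nat.cast_sum]
      exact Finset.sum_congr rfl fun χ _ => hN1 χ
    rw [h5] at h1
    exact_mod_cast h1

end Main

end Cfsg.Agent.H932.PS11
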